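import Cfsg.Agent.H377.TD.Bridge
import Cfsg.Agent.H377.TD.Main
import Cfsg.Agent.H383.HT.Proj
import Cfsg.Agent.H681.HT.PglB
import Cfsg.Agent.H420.HT.D4Pair

/-!
# `³D₄(q)`: the Borel subgroup is the stabiliser of a point of the projective line (helper377)
-/

set_option autoImplicit false
set_option linter.style.longLine false
set_option linter.unusedSectionVars false

namespace Cfsg.Agent.H377.TD

open Cfsg CoxeterSystem Cfsg.Agent.ChevalleyStructure.CoxeterGeom Cfsg.Agent.Tits.Roots Cfsg.Agent.Tits.Core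
  Cfsg.Agent.Tits.RootComb Cfsg.Agent.Nodes.Comb Cfsg.Agent.Nodes.Reps Cfsg.Agent.Nodes.BNOf
  Cfsg.Agent.Nodes.BNOf.RGD Cfsg.Agent.Nodes.RGDChev Cfsg.Agent.Nodes.RGDFold
open Cfsg.Agent.Nodes.Bruhat Cfsg.Agent.Nodes.LeviDec Cfsg.Agent.Nodes.StabComb
open Cfsg.Lie Cfsg.Agent.ChevalleyStructure Cfsg.Agent.ChevalleyStructure.TwistedU
  Cfsg.Agent.ChevalleyStructure.TwistedFix Cfsg.Agent.ChevalleyStructure.TwistedFixOrbit Cfsg.Agent.Nodes
open Cfsg.Agent.Nodes.RGDFoldSL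
open Cfsg.Agent.ChevalleyStructure.SL2Hom (up lo)
open Cfsg.Agent.BiChar.TwDFour Cfsg.Agent.H420.HT.D4Pair
open scoped MatrixGroups LinearAlgebra.Projectivization
open MulAction

variable {K : Type} [Field K] [Fintype K] {q : ℕ} {φ : K →+* K}

/-- the Borel subgroup -/
noncomputable abbrev BB {K : Type} [Field K] (φ : K →+* K) (q : ℕ) : Subgroup ↥(twistedD4 K q) :=
  RGD.B cs RGDTwD4.isCartan (RGDTwD4.T K q) (RGDTwD4.X φ q)

theorem index_BP {p : ℕ} [Fact p.Prime] [CharP K p] (hφ : ∀ x, φ x = x ^ q)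
    (hle : twistedD4 K q ≤ D4Fixed.fix φ) (hq : IsPrimePow q) (hK : Fintype.card K = q ^ 3) :
    ((BB φ q).subgroupOf (PP φ q)).index = q + 1 := by
  have : Finite CoxeterMatrix.G₂.Group := RGDChev.finite_W Cfsg.Agent.BiChar.GTwo.isType cs
  have R := RGDTwD4.rgd (K := K) cs hK hφ p
  have h1 := H554.RG.relIndex_B_PJ_singleton R 0
  rw [H115.HC.TwDFour.card_X0 hφ hle hq.one_lt hK] at h1
  exact h1

theorem card_Fq (hφ : ∀ x, φ x = x ^ q) (hq : 1 < q) (hK : Fintype.card K = q ^ 3) :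
    Nat.card (Fx φ ((RGDTwNode.D4.rest 0).length + 1)) = q := by
  rw [← ChevalleyStructure.D4U.card_fix_field hq hK hφ]
  refine Nat.card_congr (Equiv.subtypeEquivRight fun a => ?_)
  rw [mem_Fx]
  exact Iff.rfl

theorem up_mat {F : Type*} [Field F] (t : F) : ((Matrix.SpecialLinearGroup.toGL (up t) : GL (Fin 2) F) :
    Matrix (Fin 2) (Fin 2) F) = !![1, t; 0, 1] := rfl

/-- **The projection, with the Borel subgroup** -/
theorem exists_fB (hφ : ∀ x, φ x = x ^ q) (hle : twistedD4 K q ≤ D4Fixed.fix φ) (hK : Fintype.card K = q ^ 3)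
    (p : ℕ) [Fact p.Prime] [CharP K p] (hq : IsPrimePow q) :
    ∃ f : ↥(PP φ q) →* Matrix.ProjGenLinGroup (Fin 2) (Fx φ ((RGDTwNode.D4.rest 0).length + 1)),
      Function.Surjective f ∧
      (∀ x : ↥(PP φ q), (x : ↥(twistedD4 K q)) ∈ VV φ q → f x = 1) ∧
      (∀ (x : ↥(PP φ q)) (g : Matrix.SpecialLinearGroup (Fin 2) (Fx φ ((RGDTwNode.D4.rest 0).length + 1))),
        (x : ↥(twistedD4 K q)) = Ph hφ hle 0 g → f x = Matrix.ProjGenLinGroup.mk (Matrix.SpecialLinearGroup.toGL g)) ∧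
      (∀ x : ↥(PP φ q), (x : ↥(twistedD4 K q)) ∈ LL φ q →
        (f x = 1 ↔ ∀ m ∈ MM φ q, (x : ↥(twistedD4 K q)) * m = m * x)) ∧
      ∀ x : ↥(PP φ q), x ∈ (BB φ q).subgroupOf (PP φ q) ↔ f x • inf (Fx φ ((RGDTwNode.D4.rest 0).length + 1)) =
        inf (Fx φ ((RGDTwNode.D4.rest 0).length + 1)) := by
  obtain ⟨f, hf, hV, hPh, hL⟩ := H383.HT.Proj.exists_f hφ hle hK p hq
  refine ⟨f, hf, hV, hPh, hL, ?_⟩
  have : Finite CoxeterMatrix.G₂.Group := RGDChev.finite_W Cfsg.Agent.BiChar.GTwo.isType cs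
  have R := RGDTwD4.rgd (K := K) cs hK hφ p
  have hX0P : RGDTwD4.X φ q (sr 0) ≤ PP φ q :=
    le_trans (RGD.X_le_B (isRoot_sr cs _ 0) (sr_nonneg 0)) B_le_PJ
  -- the element `x0`
  have hx0 : Ph hφ hle 0 (up 1) ∈ RGDTwD4.X φ q (sr 0) := (mem_X hφ hle 0 _).2 ⟨1, rfl⟩
  -- the stabiliser
  let S : Subgroup ↥(PP φ q) := (stabilizer _ (inf (Fx φ ((RGDTwNode.D4.rest 0).length + 1)))).comap f
  have hS : ∀ x, x ∈ S ↔ f x • inf (Fx φ ((RGDTwNode.D4.rest 0).length + 1)) =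
      inf (Fx φ ((RGDTwNode.D4.rest 0).length + 1)) := fun x => by
    rw [Subgroup.mem_comap, mem_stabilizer_iff]
  have hBS : BB φ q ≤ S.map (PP φ q).subtype := by
    refine sup_le ?_ (RGD.Sup_le fun x hx => ?_)
    · intro t ht
      have htP : t ∈ PP φ q := T_le_LJ.trans LJ_le_PJ ht
      refine ⟨⟨t, htP⟩, (hS _).2 ?_, rfl⟩
      have h2 : t * Ph hφ hle 0 (up 1) * t⁻¹ ∈ RGDTwD4.X φ q (sr 0) := by
        have h1 := R.tor (sr 0) (isRoot_sr cs _ 0) t ht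
        rw [← h1]
        exact conj_mem_cj.2 hx0
      obtain ⟨r, hr⟩ := (mem_X hφ hle 0 _).1 h2
      refine smul_inf f ⟨Ph hφ hle 0 (up 1), hX0P hx0⟩ ⟨t, htP⟩ ⟨_, hPh _ _ rfl, 1, one_ne_zero, up_mat 1⟩
        ⟨Matrix.SpecialLinearGroup.toGL (up r), hPh _ _ ?_, r, up_mat r⟩
      exact hr
    · rcases mem_PosJ_or_NotJ {0} hx.1 hx.2 with h1 | h1
      · rw [Cfsg.Agent.H115.HC.PosJ_single] at h1
        rw [Set.mem_singleton_iff.1 h1]
        intro u hu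
        refine ⟨⟨u, hX0P hu⟩, (hS _).2 ?_, rfl⟩
        obtain ⟨r, hr⟩ := (mem_X hφ hle 0 u).1 hu
        rw [hPh ⟨u, hX0P hu⟩ (up r) hr]
        exact fix_inf (up_mat r)
      · intro u hu
        have hu' : u ∈ VV φ q := RGD.le_Sup (S := NotJ cs RGDTwD4.isCartan {0}) h1 hu
        refine ⟨⟨u, VJ_le_PJ hu'⟩, (hS _).2 ?_, rfl⟩
        rw [hV _ hu', one_smul]
  refine H681.HT.mem_iff_of_index hf (fun x hx => ?_) ?_
  · obtain ⟨y, hy, hyx⟩ := hBS (Subgroup.mem_subgroupOf.1 hx)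
    have : y = x := Subtype.ext hyx
    rw [← this]
    exact (hS y).1 hy
  · rw [index_BP (p := p) hφ hle hq hK, card_Fq hφ hq.one_lt hK]

end Cfsg.Agent.H377.TD
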