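import Cfsg.Agent.H377.TD.Alg

/-!
# Restriction of the character of an invariant idempotent `e` with `T_i e = -e` to the parabolic `P_i` (helper377)

`ch e|_{P_i} = (number of fixed points on the panel) - 1 + (a character)`.
-/

set_option autoImplicit false
set_option linter.style.longLine false
set_option linter.unusedSectionVars false
set_option linter.unusedVariables false

namespace Cfsg.Agent.H377.TD

open Module Cfsg Cfsg.Agent.Tits.Core Cfsg.Agent.Tits.Core.Bldg Cfsg.Agent.Tits.Exchange Cfsg.Agent.H249 MulAction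
  Cfsg.Agent.H996.Deg Cfsg.Agent.H996.Deg.Hk Cfsg.Agent.H996.Deg.Hex Cfsg.Agent.H996.Deg.IrrRank
  Cfsg.Agent.Characters.Core Cfsg.Agent.PermutationGroups.PermChar Classical

universe u

/-! ### the character of an invariant matrix -/

section Ch

variable {G X : Type*} [Group G] [Fintype X] [MulAction G X]

theorem ch_eq (Q : Matrix X X ℂ) (g : G) : ch G Q g = ∑ x, Q x (g • x) := by
  have h : Matrix.toLin' Q ∘ₗ permRep ℂ G X g = Matrix.toLin' (Matrix.of fun x z => Q x (g • z)) := by
    refine LinearMap.ext fun f => ?_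
    funext x
    rw [LinearMap.comp_apply, Matrix.toLin'_apply, Matrix.toLin'_apply, Matrix.mulVec, Matrix.mulVec, dotProduct,
      dotProduct, ← Equiv.sum_comp (MulAction.toPerm g)]
    refine Finset.sum_congr rfl fun z _ => ?_
    rw [MulAction.toPerm_apply, permRep_apply, inv_smul_smul, Matrix.of_apply]
  rw [ch, h, Matrix.trace_toLin'_eq, Matrix.trace]
  rfl

end Ch

/-! ### general character theory -/

section Common

variable {G : Type u} [Group G] [Fintype G]

/-- the product of characters of natural multiplicities -/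
theorem common (P : Subgroup G) [Fintype P] {ψ : G → ℂ} (hψ : IsCharacter G ψ) {σ κ : P → ℂ} (hσ : IsCharacter P σ)
    (hκ : IsCharacter P κ) (h : ∀ g : P, ψ g = σ g + κ g) {rho : P → ℂ} (hr : IsIrrCharacter P rho)
    (h0 : classInner (fun g => σ g * σ g) rho ≠ 0) {d : ℕ} (hd : ψ 1 = d) :
    ∃ Y : IrrCharacter G, classInner (fun g : P => (Y : G → ℂ) g) rho ≠ 0 ∧ charDegree (Y : G → ℂ) ≤ d ^ 2 := by
  have := finite_irr (G := G)
  have := Fintype.ofFinite (IrrCharacter G)
  obtain ⟨m, hm⟩ := exists_nat_comb (isCharacter_mul hψ hψ)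
  have hr' := isIrr_isCharacter hr
  have e1 : (fun g : P => ψ g * ψ g) = (fun g => σ g * σ g) + ((fun g => σ g * κ g) + ((fun g => σ g * κ g) + fun g => κ g * κ g)) := by
    funext g
    simp only [Pi.add_apply, h]
    ring
  obtain ⟨n1, hn1⟩ := classInner_isNat (isCharacter_mul hσ hσ) hr'
  obtain ⟨n2, hn2⟩ := classInner_isNat (isCharacter_mul hσ hκ) hr'
  obtain ⟨n3, hn3⟩ := classInner_isNat (isCharacter_mul hκ hκ) hr'
  have k1 : classInner (fun g : P => σ g * σ g) rho = n1 := hn1
  have k2 : classInner (fun g : P => σ g * κ g) rho = n2 := hn2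
  have k3 : classInner (fun g : P => κ g * κ g) rho = n3 := hn3
  have e2 : classInner (fun g : P => ψ g * ψ g) rho ≠ 0 := by
    rw [e1, classInner_add_left, classInner_add_left, classInner_add_left, k1, k2, k3]
    rw [k1] at h0
    have : n1 ≠ 0 := by exact_mod_cast h0
    have h2 : n1 + (n2 + (n2 + n3)) ≠ 0 := by omega
    exact_mod_cast h2
  have e3 : (fun g : P => ψ g * ψ g) = ∑ Y : IrrCharacter G, (m Y : ℂ) • (fun g : P => (Y : G → ℂ) g) := by
    funext g
    have := congrFun hm g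
    rw [Pi.mul_apply] at this
    rw [this, Finset.sum_apply, Finset.sum_apply]
    refine Finset.sum_congr rfl fun Y _ => ?_
    rw [Pi.smul_apply, Pi.smul_apply, nsmul_eq_mul, smul_eq_mul]
  rw [e3, classInner_sum_left] at e2
  obtain ⟨Y, -, hY⟩ := Finset.exists_ne_zero_of_sum_ne_zero e2
  rw [classInner_smul_left] at hY
  have hmY : m Y ≠ 0 := by
    intro h; rw [h, Nat.cast_zero, zero_mul] at hY; exact hY rfl
  refine ⟨Y, fun h => hY (by rw [h, mul_zero]), ?_⟩
  -- the degree
  have hdeg : ∀ Z : IrrCharacter G, (Z : G → ℂ) 1 = (charDegree (Z : G → ℂ) : ℂ) := by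
    intro Z
    obtain ⟨n, -, hn⟩ := isIrr_apply_one Z.2
    rw [charDegree, hn]
    simp
  have h5 : ((d ^ 2 : ℕ) : ℂ) = ((∑ Z : IrrCharacter G, m Z * charDegree (Z : G → ℂ) : ℕ) : ℂ) := by
    have := congrFun hm 1
    rw [Pi.mul_apply, hd, Finset.sum_apply] at this
    push_cast
    rw [pow_two, this]
    refine Finset.sum_congr rfl fun Z _ => ?_
    rw [Pi.smul_apply, nsmul_eq_mul, hdeg]
  have h6 : d ^ 2 = ∑ Z : IrrCharacter G, m Z * charDegree (Z : G → ℂ) := by exact_mod_cast h5
  rw [h6]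
  calc charDegree (Y : G → ℂ) ≤ m Y * charDegree (Y : G → ℂ) := Nat.le_mul_of_pos_left _ (Nat.pos_of_ne_zero hmY)
    _ ≤ _ := Finset.single_le_sum (f := fun Z : IrrCharacter G => m Z * charDegree (Z : G → ℂ)) (fun _ _ => Nat.zero_le _)
      (Finset.mem_univ Y)

end Common

/-! ### the restriction -/

section Res

variable {I W Y C : Type*} [DecidableEq I] [Fintype I] [Group W] [Group Y] {M : CoxeterMatrix I}
  {cs : CoxeterSystem M W} {p : ℕ} [MulAction Y C] {D : Dat Y I p} {Δ : Bldg cs C} {c : C} (S : Bd D Δ c)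
  [Fintype C] {e : Matrix C C ℂ} {i : I} {s : ℕ}

theorem inv_T (S : Bd D Δ c) (w : W) : Inv Y (T Δ w) := by
  intro g x y
  rw [T_apply, T_apply, S.iso]

include S in
theorem diag_eq (hI : Inv Y e) (x : C) : e x x = e c c := by
  obtain ⟨g, rfl⟩ := S.trans x
  exact hI g c c

include S in
theorem trace_eq (hI : Inv Y e) : e.trace = Fintype.card C * e c c := by
  rw [Matrix.trace, Finset.sum_congr rfl fun x _ => (show e.diag x = e c c from diag_eq S hI x), Finset.sum_const,
    Finset.card_univ, nsmul_eq_mul]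

include S in
theorem off_eq (hI : Inv Y e) (hT : T Δ (cs.simple i) * e = -e) (hs : ∀ x, Nat.card {y // Δ.δ x y = cs.simple i} = s)
    {x y : C} (h : Δ.δ x y = cs.simple i) : (s : ℂ) * e x y = - e c c := by
  have h1 := congrFun (congrFun hT y) y
  rw [Matrix.neg_apply, Matrix.mul_apply, diag_eq S hI] at h1
  rw [← h1]
  have h2 : ∀ z, T Δ (cs.simple i) y z * e z y = if Δ.δ y z = cs.simple i then e x y else 0 := by
    intro z
    rw [T_apply]
    by_cases hz : Δ.δ y z = cs.simple i
    · rw [if_pos hz, if_pos hz, one_mul]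
      have hz' : Δ.δ z y = cs.simple i := by rw [Δ.symm y z, hz, cs.inv_simple]
      obtain ⟨g, h3, h4⟩ := S.tr z y x y (by rw [hz', h])
      rw [← hI g z y, h3, h4]
    · rw [if_neg hz, if_neg hz, zero_mul]
  rw [Finset.sum_congr rfl fun z _ => h2 z, ← Finset.sum_filter, Finset.sum_const, nsmul_eq_mul, ← hs y,
    Nat.card_eq_fintype_card, Fintype.card_subtype]

/-- the panel -/
def Pn (Δ : Bldg cs C) (c : C) (i : I) (y : C) : Prop := Δ.δ c y = 1 ∨ Δ.δ c y = cs.simple i

theorem pn_iff {x z : C} (hx : Pn Δ c i x) : (Pn Δ c i z ↔ z = x ∨ Δ.δ x z = cs.simple i) := by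
  have hs1 : cs.simple i ≠ 1 := by
    intro h
    have := cs.length_simple i
    rw [h, cs.length_one] at this
    exact absurd this (by norm_num)
  constructor
  · intro hz
    rcases hx with hx | hx
    · rw [Δ.eq_one] at hx
      subst hx
      rcases hz with hz | hz
      · left; exact ((Δ.eq_one _ _).1 hz).symm
      · right; exact hz
    · by_cases hzx : z = x
      · exact Or.inl hzx
      · right
        rcases hz with hz | hz
        · rw [Δ.eq_one] at hz
          subst hz
          rw [Δ.symm, hx, cs.inv_simple]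
        · have hxc : Δ.δ x c = cs.simple i := by rw [Δ.symm, hx, cs.inv_simple]
          rcases Δ.step x c z i hz with h | h
          · rw [hxc, cs.simple_mul_simple_self, Δ.eq_one] at h
            exact absurd h.symm hzx
          · rw [h, hxc]
  · rintro (rfl | h)
    · exact hx
    · rcases hx with hx | hx
      · rw [Δ.eq_one] at hx
        subst hx
        exact Or.inr h
      · rcases Δ.step c x z i h with h1 | h1
        · left; rw [h1, hx, cs.simple_mul_simple_self]
        · right; rw [h1, hx]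

/-- the indicator of the panel -/
noncomputable def pI (Δ : Bldg cs C) (c : C) (i : I) (y : C) : ℂ := if Pn Δ c i y then 1 else 0

/-- sum over the panel -/
theorem sum_pI {x : C} (hx : Pn Δ c i x) (f : C → ℂ) :
    ∑ z, pI Δ c i z * f z = f x + ∑ z, T Δ (cs.simple i) x z * f z := by
  have hs1 : cs.simple i ≠ 1 := by
    intro h
    have := cs.length_simple i
    rw [h, cs.length_one] at this
    exact absurd this (by norm_num)
  have h1 : ∀ z, pI Δ c i z * f z = (if z = x then f z else 0) + T Δ (cs.simple i) x z * f z := by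
    intro z
    rw [T_apply, pI]
    by_cases hz : Pn Δ c i z
    · rw [if_pos hz]
      rcases (pn_iff hx).1 hz with rfl | h
      · rw [if_pos rfl, Δ.δ_self, if_neg hs1.symm]; ring
      · have hne : z ≠ x := by
          rintro rfl
          rw [Δ.δ_self] at h
          exact hs1 h.symm
        rw [if_neg hne, if_pos h]; ring
    · rw [if_neg hz, if_neg, if_neg]
      · ring
      · intro h; exact hz ((pn_iff hx).2 (Or.inr h))
      · rintro rfl; exact hz hx
  rw [Finset.sum_congr rfl fun z _ => h1 z, Finset.sum_add_distrib]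
  congr 1
  rw [Finset.sum_ite_eq' Finset.univ x, if_pos (Finset.mem_univ _)]

include S in
/-- `D e D e = λ D e` -/
theorem key_sum (hI : Inv Y e) (hT : T Δ (cs.simple i) * e = -e)
    (hs : ∀ x, Nat.card {y // Δ.δ x y = cs.simple i} = s) (hs0 : s ≠ 0) {x : C} (hx : Pn Δ c i x) (y : C) :
    ∑ z, pI Δ c i z * (e x z * e z y) = e c c * ((s + 1) / s) * e x y := by
  have hs0' : (s : ℂ) ≠ 0 := by exact_mod_cast hs0
  rw [sum_pI hx, diag_eq S hI]
  have h1 : ∀ z, T Δ (cs.simple i) x z * (e x z * e z y) = -(e c c / s) * (T Δ (cs.simple i) x z * e z y) := by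
    intro z
    rw [T_apply]
    by_cases hz : Δ.δ x z = cs.simple i
    · rw [if_pos hz]
      have h2 := off_eq S hI hT hs hz
      field_simp
      linear_combination e z y * h2
    · rw [if_neg hz]; ring
  rw [Finset.sum_congr rfl fun z _ => h1 z, ← Finset.mul_sum, ← Matrix.mul_apply, hT, Matrix.neg_apply]
  field_simp

/-- the first idempotent, up to `λ` -/
noncomputable def eDe (Δ : Bldg cs C) (c : C) (i : I) (e : Matrix C C ℂ) : Matrix C C ℂ :=
  Matrix.of fun x y => ∑ z, pI Δ c i z * (e x z * e z y)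

theorem eDe_apply (x y : C) : eDe Δ c i e x y = ∑ z, pI Δ c i z * (e x z * e z y) := rfl

theorem e_eDe (he : e * e = e) : e * eDe Δ c i e = eDe Δ c i e := by
  ext x y
  rw [Matrix.mul_apply, eDe_apply]
  simp only [eDe_apply, Finset.mul_sum]
  rw [Finset.sum_comm]
  refine Finset.sum_congr rfl fun z _ => ?_
  have h := congrFun (congrFun he x) z
  rw [Matrix.mul_apply] at h
  rw [← h, Finset.sum_mul, Finset.mul_sum]
  refine Finset.sum_congr rfl fun w _ => ?_
  ring

theorem eDe_e (he : e * e = e) : eDe Δ c i e * e = eDe Δ c i e := by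
  ext x y
  rw [Matrix.mul_apply, eDe_apply]
  simp only [eDe_apply, Finset.sum_mul]
  rw [Finset.sum_comm]
  refine Finset.sum_congr rfl fun z _ => ?_
  have h := congrFun (congrFun he z) y
  rw [Matrix.mul_apply] at h
  rw [← h, Finset.mul_sum, Finset.mul_sum]
  refine Finset.sum_congr rfl fun w _ => ?_
  ring

include S in
theorem eDe_sq (he : e * e = e) (hI : Inv Y e) (hT : T Δ (cs.simple i) * e = -e)
    (hs : ∀ x, Nat.card {y // Δ.δ x y = cs.simple i} = s) (hs0 : s ≠ 0) :
    eDe Δ c i e * eDe Δ c i e = (e c c * ((s + 1) / s)) • eDe Δ c i e := by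
  ext x y
  rw [Matrix.mul_apply, Matrix.smul_apply, smul_eq_mul, eDe_apply, Finset.mul_sum]
  have h1 : ∀ w, eDe Δ c i e x w * eDe Δ c i e w y = ∑ z, pI Δ c i z * (e x z * (e z w * eDe Δ c i e w y)) := by
    intro w
    rw [eDe_apply x w, Finset.sum_mul]
    refine Finset.sum_congr rfl fun z _ => ?_
    ring
  rw [Finset.sum_congr rfl fun w _ => h1 w, Finset.sum_comm]
  refine Finset.sum_congr rfl fun z _ => ?_
  rw [← Finset.mul_sum, ← Finset.mul_sum]
  have h2 : ∑ w, e z w * eDe Δ c i e w y = eDe Δ c i e z y := by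
    rw [← Matrix.mul_apply, e_eDe he]
  rw [h2]
  by_cases hz : Pn Δ c i z
  · rw [eDe_apply, key_sum S hI hT hs hs0 hz]
    ring
  · rw [pI, if_neg hz]; ring

/-! #### the parabolic -/

section Par

variable {P B : Subgroup Y}

include S in
theorem pn_smul (hP : ∀ g, g ∈ P ↔ Pn Δ c i (g • c)) {g : Y} (hg : g ∈ P) {z : C} : Pn Δ c i (g • z) ↔ Pn Δ c i z := by
  have key : ∀ g ∈ P, ∀ z, Pn Δ c i z → Pn Δ c i (g • z) := by
    intro g hg z hz
    obtain ⟨k, rfl⟩ := S.trans z
    rw [smul_smul]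
    exact (hP _).1 (mul_mem hg ((hP _).2 hz))
  refine ⟨fun h => ?_, key g hg z⟩
  have := key g⁻¹ (inv_mem hg) _ h
  rwa [inv_smul_smul] at this

include S in
theorem inv_eDe (hI : Inv Y e) (hP : ∀ g, g ∈ P ↔ Pn Δ c i (g • c)) : Inv P (eDe Δ c i e) := by
  intro g x y
  rw [eDe_apply, eDe_apply, ← Equiv.sum_comp (MulAction.toPerm (g : Y))]
  refine Finset.sum_congr rfl fun z _ => ?_
  rw [MulAction.toPerm_apply, pI, pI]
  have h1 : e (g • x) ((g : Y) • z) = e x z := hI g x z
  have h2 : e ((g : Y) • z) (g • y) = e z y := hI g z y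
  rw [h1, h2]
  simp only [pn_smul S hP g.2]

include S in
theorem sum_eDe (he : e * e = e) (hI : Inv Y e) (g : P) :
    ∑ x, eDe Δ c i e x (g • x) = ∑ z, pI Δ c i z * e ((g : Y)⁻¹ • z) z := by
  simp only [eDe_apply]
  rw [Finset.sum_comm]
  refine Finset.sum_congr rfl fun z _ => ?_
  rw [← Finset.mul_sum]
  congr 1
  have h1 := congrFun (congrFun he ((g : Y)⁻¹ • z)) z
  rw [Matrix.mul_apply] at h1
  rw [← h1]
  refine Finset.sum_congr rfl fun x _ => ?_
  have h2 : e z (g • x) = e ((g : Y)⁻¹ • z) x := by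
    rw [← hI (g : Y) ((g : Y)⁻¹ • z) x, smul_inv_smul]; rfl
  rw [h2, mul_comm]

include S in
theorem sum_pI_one (hs : ∀ x, Nat.card {y // Δ.δ x y = cs.simple i} = s) : ∑ z, pI Δ c i z = (s + 1 : ℂ) := by
  have h := sum_pI (Δ := Δ) (c := c) (i := i) (x := c) (Or.inl (Δ.δ_self c)) (fun _ => (1 : ℂ))
  simp only [mul_one] at h
  rw [h, add_comm]
  congr 1
  simp only [T_apply]
  rw [Finset.sum_boole, ← hs c, Nat.card_eq_fintype_card, Fintype.card_subtype]

include S in
theorem ch_eDe (he : e * e = e) (hI : Inv Y e) (hT : T Δ (cs.simple i) * e = -e)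
    (hs : ∀ x, Nat.card {y // Δ.δ x y = cs.simple i} = s) (hs0 : s ≠ 0) (hP : ∀ g, g ∈ P ↔ Pn Δ c i (g • c)) (g : P) :
    ch P (eDe Δ c i e) g = (e c c * ((s + 1) / s)) * ((Nat.card {z // Pn Δ c i z ∧ (g : Y) • z = z} : ℂ) - 1) := by
  have hs0' : (s : ℂ) ≠ 0 := by exact_mod_cast hs0
  rw [ch_eq, sum_eDe S he hI]
  have h1 : ∀ z, pI Δ c i z * e ((g : Y)⁻¹ • z) z =
      (e c c * ((s + 1) / s)) * (if Pn Δ c i z ∧ (g : Y) • z = z then 1 else 0) - (e c c / s) * pI Δ c i z := by
    intro z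
    rw [pI]
    by_cases hz : Pn Δ c i z
    · rw [if_pos hz]
      by_cases hg : (g : Y) • z = z
      · rw [if_pos ⟨hz, hg⟩]
        have : (g : Y)⁻¹ • z = z := by rw [inv_smul_eq_iff, hg]
        rw [this, diag_eq S hI]
        field_simp
        ring
      · rw [if_neg (fun h => hg h.2)]
        have hz' : Pn Δ c i ((g : Y)⁻¹ • z) := (pn_smul S hP (inv_mem g.2)).2 hz
        have hδ : Δ.δ ((g : Y)⁻¹ • z) z = cs.simple i := by
          rcases (pn_iff hz').1 hz with h | h
          · exact absurd (by rw [eq_inv_smul_iff] at h; exact h) hg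
          · exact h
        have h2 := off_eq S hI hT hs hδ
        field_simp
        linear_combination h2
    · rw [if_neg hz, if_neg (fun h => hz h.1)]
      ring
  rw [Finset.sum_congr rfl fun z _ => h1 z, Finset.sum_sub_distrib, ← Finset.mul_sum, ← Finset.mul_sum,
    sum_pI_one S hs, Finset.sum_boole, Nat.card_eq_fintype_card, Fintype.card_subtype]
  field_simp

include S in
theorem card_fix (hP : ∀ g, g ∈ P ↔ Pn Δ c i (g • c)) (hB : ∀ g, g ∈ B ↔ g • c = c) (g : P) :
    Nat.card (fixedBy (P ⧸ B.subgroupOf P) g) = Nat.card {z // Pn Δ c i z ∧ (g : Y) • z = z} := by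
  have hst : B.subgroupOf P = stabilizer P c := by
    ext x
    rw [Subgroup.mem_subgroupOf, hB, mem_stabilizer_iff]
    rfl
  rw [hst]
  refine Nat.card_congr (Equiv.ofBijective (fun x => ⟨ofQuotientStabilizer P c x.1, ?_, ?_⟩) ⟨?_, ?_⟩)
  · obtain ⟨x, hx⟩ := x
    induction x using QuotientGroup.induction_on with
    | H k =>
      rw [ofQuotientStabilizer_mk]
      exact (hP _).1 k.2
  · have h1 := x.2
    rw [mem_fixedBy] at h1
    have h2 := ofQuotientStabilizer_smul P c g x.1
    rw [h1] at h2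
    exact h2.symm
  · intro x y h
    have h1 : ofQuotientStabilizer P c x.1 = ofQuotientStabilizer P c y.1 := congrArg Subtype.val h
    exact Subtype.ext (injective_ofQuotientStabilizer P c h1)
  · rintro ⟨z, hz, hg⟩
    obtain ⟨k, rfl⟩ := S.trans z
    have hk : k ∈ P := (hP _).2 hz
    refine ⟨⟨((⟨k, hk⟩ : P) : P ⧸ stabilizer P c), ?_⟩, ?_⟩
    · rw [mem_fixedBy]
      refine injective_ofQuotientStabilizer P c ?_
      rw [ofQuotientStabilizer_smul, ofQuotientStabilizer_mk]
      exact hg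
    · exact Subtype.ext (ofQuotientStabilizer_mk P c _)

include S in
/-- **The restriction to the parabolic** -/
theorem res (he : e * e = e) (hI : Inv Y e) (hT : T Δ (cs.simple i) * e = -e)
    (hs : ∀ x, Nat.card {y // Δ.δ x y = cs.simple i} = s) (hs0 : s ≠ 0) (h0 : e c c ≠ 0)
    (hP : ∀ g, g ∈ P ↔ Pn Δ c i (g • c)) (hB : ∀ g, g ∈ B ↔ g • c = c) :
    IsCharacter P (fun g => fixedPointCharacter (B.subgroupOf P) g - 1) ∧
    ∃ κ : P → ℂ, IsCharacter P κ ∧ ∀ g : P, ch Y e g = (fixedPointCharacter (B.subgroupOf P) g - 1) + κ g := by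
  have hs0' : (s : ℂ) ≠ 0 := by exact_mod_cast hs0
  obtain ⟨l, hl⟩ : ∃ l : ℂ, l = e c c * ((s + 1) / s) := ⟨_, rfl⟩
  have hs1 : (s : ℂ) + 1 ≠ 0 := by exact_mod_cast Nat.succ_ne_zero s
  have hl0 : l ≠ 0 := by rw [hl]; exact mul_ne_zero h0 (div_ne_zero hs1 hs0')
  have hII : Inv P (eDe Δ c i e) := inv_eDe S hI hP
  have hIe : Inv P e := fun g x y => hI g x y
  -- first idempotent
  have f1 : (l⁻¹ • eDe Δ c i e) * (l⁻¹ • eDe Δ c i e) = l⁻¹ • eDe Δ c i e := by
    rw [Matrix.smul_mul, Matrix.mul_smul, eDe_sq S he hI hT hs hs0, ← hl, smul_smul l⁻¹ l, inv_mul_cancel₀ hl0, one_smul]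
  have f2 : (e - l⁻¹ • eDe Δ c i e) * (e - l⁻¹ • eDe Δ c i e) = e - l⁻¹ • eDe Δ c i e := by
    rw [Matrix.sub_mul, Matrix.mul_sub, Matrix.mul_sub, f1, he, Matrix.mul_smul, e_eDe he, Matrix.smul_mul, eDe_e he]
    abel
  have k1 : ∀ g : P, ch P (l⁻¹ • eDe Δ c i e) g = fixedPointCharacter (B.subgroupOf P) g - 1 := by
    intro g
    have h1 : ch P (l⁻¹ • eDe Δ c i e) g = l⁻¹ * ch P (eDe Δ c i e) g := by
      rw [ch_eq, ch_eq, Finset.mul_sum]
      rfl
    rw [h1, ch_eDe S he hI hT hs hs0 hP, ← hl, ← mul_assoc, inv_mul_cancel₀ hl0, one_mul, fixedPointCharacter,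
      card_fix S hP hB]
  refine ⟨?_, ch P (e - l⁻¹ • eDe Δ c i e), isCharacter_ch (hIe.sub (hII.smul _)) f2, fun g => ?_⟩
  · have h2 := isCharacter_ch (hII.smul l⁻¹) f1
    have h3 : ch P (l⁻¹ • eDe Δ c i e) = fun g => fixedPointCharacter (B.subgroupOf P) g - 1 := funext k1
    rwa [h3] at h2
  · rw [← k1, ch_eq, ch_eq, ch_eq, ← Finset.sum_add_distrib]
    refine Finset.sum_congr rfl fun x _ => ?_
    rw [Matrix.sub_apply]
    show e x (g • x) = _
    ring

end Par

end Res

end Cfsg.Agent.H377.TD
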